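import Cfsg.Agent.Lib.Calc.VecPM

/-!
# Evaluation of formulas on base points only

Elements are given by the functions they and their inverses induce on points; no tables are multiplied.
-/

set_option autoImplicit false

namespace Cfsg.Lib.SzV

open Subgroup MulAction Cfsg.Lib.Calc Cfsg.Lib.Grp Cfsg.Lib.T2 Cfsg.Lib.Mathieu
open Cfsg.Lib.Golay (memL memL_iff)

variable {G X : Type*} [Group G] [MulAction G X] {n w : ℕ} {pt : ℕ → X}

/-- a function and its inverse -/
abbrev F2 := Bool → ℕ → ℕ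
/-- the product -/
noncomputable def fmul (a b : F2) : F2 := fun s i => Bool.rec (a false (b false i)) (b true (a true i)) s
/-- the inverse -/
noncomputable def finv (a : F2) : F2 := fun s => Bool.rec (a true) (a false) s
/-- a table -/
noncomputable def ftab (n w c : ℕ) : F2 := fun s i => Bool.rec (get w c i) (get w (invC n w c) i) s
/-- a word -/
noncomputable def wpf (ef : ℕ → F2) (t : W) : F2 :=
  W.rec (motive := fun _ => F2) ef (fun _ _ a b => fmul a b) (fun _ k a s => iter (a s) k) (fun _ a => finv a) t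
/-- the letters -/
noncomputable def fenv (n w : ℕ) (env : ℕ → ℕ) (c : ℕ) : F2 := fun s i => forceN (env c) fun x => ftab n w x s i

/-- the meaning -/
def Ac2 (n : ℕ) (pt : ℕ → X) (g : G) (f : F2) : Prop := Act n pt g (f false) ∧ Act n pt g⁻¹ (f true)

theorem Ac2.one : Ac2 n pt (1 : G) fun _ i => i := ⟨Act.one, by rw [inv_one]; exact Act.one⟩
theorem Ac2.mul {a b : G} {f g : F2} (i : Ac2 n pt a f) (j : Ac2 n pt b g) : Ac2 n pt (a * b) (fmul f g) :=
  ⟨i.1.mul j.1, mul_inv_rev a b ▸ j.2.mul i.2⟩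
theorem Ac2.inv {a : G} {f : F2} (i : Ac2 n pt a f) : Ac2 n pt a⁻¹ (finv f) := ⟨i.2, (inv_inv a).symm ▸ i.1⟩
theorem Ac2.tab (hi : Inj n pt) (hw : n ≤ 2 ^ w) {a : G} {c : ℕ} (i : Rep n w pt a c) : Ac2 n pt a (ftab n w c) :=
  ⟨.of_rep i, .of_rep (rep_invC hi hw i)⟩
theorem Ac2.env (hi : Inj n pt) (hw : n ≤ 2 ^ w) {γ : ℕ → G} {env : ℕ → ℕ} (i : ∀ c, Rep n w pt (γ c) (env c)) (c : ℕ) :
    Ac2 n pt (γ c) (fenv n w env c) := by
  rw [show fenv n w env c = ftab n w (env c) from funext₂ fun s i => forceN_eq ..]; exact .tab hi hw (i c)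
theorem Ac2.word {γ : ℕ → G} {ef : ℕ → F2} (h : ∀ c, Ac2 n pt (γ c) (ef c)) (t : W) : Ac2 n pt (t.ev γ) (wpf ef t) := by
  induction t with
  | l c => exact h c
  | mul a b i j => exact i.mul j
  | pow a k i => exact ⟨i.1.pow k, by rw [ev_pow, ← inv_pow]; exact i.2.pow k⟩
  | inv a i => exact i.inv

/-- a loop over a list with a counter (which makes the terms seen by the kernel's cache different) -/
noncomputable def allI (l : List ℕ) (P : ℕ → ℕ → Bool) : ℕ → Bool := List.rec (fun _ => true) (fun a _ ih j => Bool.rec false (ih (Nat.succ j)) (P a j)) l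
/-- a table with a label -/
noncomputable def ftabS (n w c _j : ℕ) : F2 := ftab n w c
theorem allI_iff {l : List ℕ} {P : F2 → Bool} {f : F2} {j : ℕ} :
    allI l (fun c j => P (fmul f (ftabS n w c j))) j = true ↔ ∀ c ∈ l, P (fmul f (ftab n w c)) = true := by
  induction l generalizing j with
  | nil => exact iff_of_true rfl fun _ m => nomatch m
  | cons a l ih => rw [List.forall_mem_cons]; exact band_eq_true.trans (and_congr_right' ih)
/-- all products `f * t₁ * ⋯ * tₖ` pass `P` -/
noncomputable def allF (n w : ℕ) (P : F2 → Bool) (L : List (ℕ × List ℕ)) : F2 → Bool :=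
  List.rec P (fun l _ ih f => allI l.2 (fun c j => ih (fmul f (ftabS n w c j))) 0) L

theorem allF_iff (hi : Inj n pt) (hw : n ≤ 2 ^ w) {P : F2 → Bool} {Q : G → Prop} {M K : Subgroup G}
    (hQ : ∀ g ∈ M, ∀ f, Ac2 n pt g f → (P f = true ↔ Q g)) {L : List (ℕ × List ℕ)} (h : Chn n w pt L K) (l : K ≤ M) {a : G} {f : F2}
    (m : a ∈ M) (i : Ac2 n pt a f) : allF n w P L f = true ↔ ∀ k ∈ K, Q (a * k) := by
  induction L generalizing K a f with
  | nil => obtain rfl : K = ⊥ := h.st; exact (hQ a m f i).trans (by simp)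
  | cons b L ih =>
    refine allI_iff.trans ⟨fun e k j => ?_, fun e c j => ?_⟩
    · obtain ⟨c, o, p⟩ := h.st.1 k j
      obtain ⟨t, q, r⟩ := h.wk.2.1 c o
      have := (ih h.tail (inf_le_left.trans l) (mul_mem m (l q)) (i.mul (.tab hi hw r))).1 (e c o) (t⁻¹ * k)
        ⟨K.mul_mem (K.inv_mem q) j, by change (t⁻¹ * k) • pt b.1 = pt b.1; rw [mul_smul, p, inv_smul_eq_iff, r.smul h.wk.1]⟩
      rwa [mul_assoc, mul_inv_cancel_left] at this
    · obtain ⟨t, q, r⟩ := h.wk.2.1 c j
      exact (ih h.tail (inf_le_left.trans l) (mul_mem m (l q)) (i.mul (.tab hi hw r))).2 fun k o => mul_assoc a t k ▸ e _ (mul_mem q o.1)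

theorem allF_of (hi : Inj n pt) (hw : n ≤ 2 ^ w) {P : F2 → Bool} {K : Subgroup G} {L : List (ℕ × List ℕ)} (h : Chn n w pt L K)
    (e : allF n w P L (fun _ i => i) = true) {k : G} (m : k ∈ K) : ∃ f, Ac2 n pt k f ∧ P f = true := by
  suffices ∀ {a : G} {f}, Ac2 n pt a f → allF n w P L f = true → ∃ f, Ac2 n pt (a * k) f ∧ P f = true by simpa using this .one e
  clear e
  induction L generalizing K k with
  | nil => obtain rfl : K = ⊥ := h.st; obtain rfl := mem_bot.1 m; exact fun i e => ⟨_, by rwa [mul_one], e⟩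
  | cons b L ih =>
    intro a f i e
    obtain ⟨c, o, p⟩ := h.st.1 k m
    obtain ⟨t, q, r⟩ := h.wk.2.1 c o
    have := ih h.tail (k := t⁻¹ * k) ⟨K.mul_mem (K.inv_mem q) m, by
      change (t⁻¹ * k) • pt b.1 = pt b.1; rw [mul_smul, p, inv_smul_eq_iff, r.smul h.wk.1]⟩ (i.mul (.tab hi hw r)) (allI_iff.1 e c o)
    rwa [mul_assoc, mul_inv_cancel_left] at this

/-- equality on the base -/
noncomputable def feq (B : List ℕ) (f g : F2) : Bool := allL B fun i => Nat.beq (f false i) (g false i)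
theorem feq_iff (hi : Inj n pt) {M : Subgroup G} {B : List ℕ} (hB : Base n pt M B) {a b : G} (i : a ∈ M) (j : b ∈ M) {f g : F2}
    (k : Ac2 n pt a f) (l : Ac2 n pt b g) : feq B f g = true ↔ a = b := (hB.eq_iff hi i j k.1 l.1).symm

/-- sifting -/
noncomputable def memF (n w : ℕ) (B : List ℕ) (L : List (ℕ × List ℕ)) : F2 → Bool :=
  List.rec (fun f => feq B f fun _ i => i) (fun l _ ih f => forceB (f false l.1) fun y => anyL l.2 fun c => forceB c fun c =>
    band (Nat.beq (get w c l.1) y) (ih (fmul (finv (ftab n w c)) f))) L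

theorem memF_iff (hi : Inj n pt) (hw : n ≤ 2 ^ w) {M K : Subgroup G} {B : List ℕ} (hB : Base n pt M B) {L : List (ℕ × List ℕ)}
    (h : Chn n w pt L K) (l : K ≤ M) {a : G} {f : F2} (m : a ∈ M) (i : Ac2 n pt a f) : memF n w B L f = true ↔ a ∈ K := by
  induction L generalizing K a f with
  | nil => obtain rfl : K = ⊥ := h.st; exact (feq_iff hi hB m (one_mem M) i .one).trans mem_bot.symm
  | cons b L ih =>
    change forceB (f false b.1) (fun y => anyL b.2 fun c => forceB c fun c => band (Nat.beq (get w c b.1) y)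
      (memF n w B L (fmul (finv (ftab n w c)) f))) = true ↔ _
    simp only [forceB_eq, anyL_iff, band_eq_true, beq_iff]
    refine ⟨fun ⟨c, o, _, e⟩ => ?_, fun j => ?_⟩
    · obtain ⟨t, q, r⟩ := h.wk.2.1 c o
      exact (mul_mem_cancel_left (inv_mem q)).1 ((ih h.tail (inf_le_left.trans l) (mul_mem (inv_mem (l q)) m) ((Ac2.tab hi hw r).inv.mul i)).1 e).1
    · obtain ⟨c, o, p⟩ := h.st.1 a j
      obtain ⟨t, q, r⟩ := h.wk.2.1 c o
      exact ⟨c, o, hi _ (r.lt h.wk.1) _ (i.1 _ h.wk.1).1 (p.symm.trans (i.1 _ h.wk.1).2),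
        (ih h.tail (inf_le_left.trans l) (mul_mem (inv_mem (l q)) m) ((Ac2.tab hi hw r).inv.mul i)).2 ⟨K.mul_mem (K.inv_mem q) j, by
          change (t⁻¹ * a) • pt b.1 = pt b.1; rw [mul_smul, p, inv_smul_eq_iff, r.smul h.wk.1]⟩⟩

/-- the side conditions -/
noncomputable def psF (B : List ℕ) (ef : ℕ → F2) (ps : List (W × W)) (f : F2) : Bool :=
  allP ps fun p => feq B (fmul f (wpf ef p.1)) (fmul (wpf ef p.2) f)

/-- evaluation of a formula -/
noncomputable def evf (n w : ℕ) (B : List ℕ) (Ls : ℕ → List (ℕ × List ℕ)) (φ : Fm) : (ℕ → F2) → Bool :=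
  Fm.rec (motive := fun _ => (ℕ → F2) → Bool) (fun _ => true)
    (fun t ef => feq B (wpf ef t) fun _ i => i) (fun s t ef => feq B (wpf ef s) (wpf ef t)) (fun k t ef => memF n w B (Ls k) (wpf ef t))
    (fun _ a ef => bnot (a ef)) (fun _ _ a b ef => band (a ef) (b ef)) (fun _ _ a b ef => bor (a ef) (b ef))
    (fun _ _ a b ef => Bool.rec true (b ef) (a ef))
    (fun k v ps _ a ef => allF n w (fun f => Bool.rec true (a (upd ef v f)) (psF B ef ps f)) (Ls k) fun _ i => i)
    (fun k v ps _ a ef => bnot (allF n w (fun f => bnot (band (psF B ef ps f) (a (upd ef v f)))) (Ls k) fun _ i => i))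
    (fun v t _ a ef => a (upd ef v (wpf ef t))) φ

theorem brec_iff {a b : Bool} : (Bool.rec true b a : Bool) = true ↔ (a = true → b = true) := by cases a <;> simp

theorem evf_iff (hi : Inj n pt) (hw : n ≤ 2 ^ w) {M : Subgroup G} {B : List ℕ} (hB : Base n pt M B) {K : ℕ → Subgroup G}
    {Ls : ℕ → List (ℕ × List ℕ)} (hL : ∀ k, Chn n w pt (Ls k) (K k)) (hK : ∀ k, K k ≤ M) (φ : Fm) {γ : ℕ → G} {ef : ℕ → F2}
    (h : ∀ c, Ac2 n pt (γ c) (ef c)) (hM : ∀ c, γ c ∈ M) : evf n w B Ls φ ef = true ↔ φ.holds K γ := by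
  have ps : ∀ {γ : ℕ → G} {ef}, (∀ c, Ac2 n pt (γ c) (ef c)) → (∀ c, γ c ∈ M) → ∀ ps, ∀ g ∈ M, ∀ f, Ac2 n pt g f →
      (psF B ef ps f = true ↔ ∀ p ∈ ps, g * p.1.ev γ = p.2.ev γ * g) := fun h hM ps g m f i =>
    allP_iff.trans (forall₂_congr fun p _ => feq_iff hi hB (mul_mem m (ev_mem_of_forall hM _)) (mul_mem (ev_mem_of_forall hM _) m)
      (i.mul (.word h _)) ((Ac2.word h _).mul i))
  induction φ generalizing γ ef with
  | tt => exact iff_of_true rfl trivial
  | one t => exact feq_iff hi hB (ev_mem_of_forall hM t) M.one_mem (.word h t) .one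
  | eq s t => exact feq_iff hi hB (ev_mem_of_forall hM s) (ev_mem_of_forall hM t) (.word h s) (.word h t)
  | mem k t => exact memF_iff hi hw hB (hL k) (hK k) (ev_mem_of_forall hM t) (.word h t)
  | not φ ih => exact bnot_iff.trans (not_congr (ih h hM))
  | and φ ψ ih ih' => exact band_eq_true.trans (and_congr (ih h hM) (ih' h hM))
  | or φ ψ ih ih' => exact bor_eq_true.trans (or_congr (ih h hM) (ih' h hM))
  | imp φ ψ ih ih' => exact brec_iff.trans (imp_congr (ih h hM) (ih' h hM))
  | all k v l φ ih =>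
    refine (allF_iff hi hw (Q := fun x => imps γ x (φ.holds K (upd γ v x)) l) (fun g m f i => brec_iff.trans (Iff.trans (imp_congr (ps h hM l g m f i)
      (ih (upd_forall₂ (P := Ac2 n pt) h i) (upd_forall (P := fun _ x => x ∈ M) hM m))) imps_iff.symm)) (hL k) (hK k) M.one_mem .one).trans ?_
    simp only [one_mul]; rfl
  | ex k v l φ ih =>
    refine bnot_iff.trans ((not_congr (allF_iff hi hw (Q := fun x => ¬ ands γ x (φ.holds K (upd γ v x)) l) (fun g m f i => bnot_iff.trans
      (not_congr (band_eq_true.trans (Iff.trans (and_congr (ps h hM l g m f i) (ih (upd_forall₂ (P := Ac2 n pt) h i)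
        (upd_forall (P := fun _ x => x ∈ M) hM m))) ands_iff.symm)))) (hL k) (hK k) M.one_mem .one)).trans ?_)
    simp only [one_mul, not_forall, not_not, exists_prop]; rfl
  | lt v t φ ih => exact ih (upd_forall₂ (P := Ac2 n pt) h (.word h t)) (upd_forall (P := fun _ x => x ∈ M) hM (ev_mem_of_forall hM t))

/-! ### Chains -/

/-- an entry of a list -/
noncomputable def nthD (d : ℕ) (l : List ℕ) : ℕ → ℕ := List.rec (fun _ => d) (fun a _ ih j => Nat.rec a (fun j _ => ih j) j) l
theorem nthD_mem (d : ℕ) (l : List ℕ) (j : ℕ) : nthD d l j ∈ d :: l := by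
  induction l generalizing j with
  | nil => exact .head _
  | cons a l ih => cases j with
    | zero => exact .tail _ (.head _)
    | succ j => exact (List.mem_cons.1 (ih j)).elim (fun e => List.mem_cons.2 (.inl e)) fun e => .tail _ (.tail _ e)
/-- the table with a given label -/
noncomputable def codF (n w : ℕ) (C : List ℕ) (l : ℕ) : ℕ :=
  forceN (nthD (idc n w) C (Nat.shiftRight l 1)) fun x => cnd (Nat.beq (Nat.land l 1) 0) x (invC n w x)
/-- each table is a product of earlier ones -/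
noncomputable def slpF (n w : ℕ) (T : List ℕ) : List (List ℕ) → List ℕ → Bool :=
  List.rec (fun _ _ => true) (fun c _ ih D C => forceL ((D.headD []).map (codF n w C)) fun ts =>
    band (Nat.beq (pack w (apL (get w) ts) n) c) (ih D.tail (c :: C))) T

theorem in_of_slpF (hi : Inj n pt) (hw : n ≤ 2 ^ w) {K : Subgroup G} {T C : List ℕ} {D : List (List ℕ)} (h : In n w pt K C)
    (e : slpF n w T D C = true) : In n w pt K T := by
  induction T generalizing D C with
  | nil => exact fun _ m => nomatch m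
  | cons c T ih =>
    obtain ⟨e₁, e₂⟩ := band_eq_true.1 ((forceL_eq ..).symm.trans e)
    obtain ⟨g, a, b⟩ := exists_act_apL (n := n) (pt := pt) (ap := get w) (P := K) (u := (D.headD []).map (codF n w C)) fun T m => by
      obtain ⟨l, -, rfl⟩ := List.mem_map.1 m
      obtain ⟨g, a, b⟩ := List.forall_mem_cons.2 ⟨⟨1, K.one_mem, Rep.one hw⟩, h⟩ _ (nthD_mem (idc n w) C (Nat.shiftRight l 1))
      rw [codF, forceN_eq]
      cases Nat.beq (Nat.land l 1) 0
      exacts [⟨_, K.inv_mem a, .of_rep (rep_invC hi hw b)⟩, ⟨g, a, .of_rep b⟩]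
    have : In n w pt K (c :: C) := List.forall_mem_cons.2 ⟨⟨g, a, beq_iff.1 e₁ ▸ rep_of_act hw b⟩, h⟩
    exact List.forall_mem_cons.2 ⟨this _ (.head _), ih this e₂⟩

theorem memF_cons {B : List ℕ} {b : ℕ × List ℕ} {L : List (ℕ × List ℕ)} {f : F2} (e : memF n w B (b :: L) f = true) :
    ∃ c ∈ b.2, memF n w B L (fmul (finv (ftab n w c)) f) = true := by
  change forceB (f false b.1) (fun y => anyL b.2 fun c => forceB c fun c => band (Nat.beq (get w c b.1) y)
    (memF n w B L (fmul (finv (ftab n w c)) f))) = true at e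
  simp only [forceB_eq, anyL_iff, band_eq_true] at e
  exact e.imp fun _ e => ⟨e.1, e.2.2⟩
theorem memF_sound (hi : Inj n pt) (hw : n ≤ 2 ^ w) {M K : Subgroup G} {B : List ℕ} (hB : Base n pt M B) {L : List (ℕ × List ℕ)}
    (h : In n w pt K (flat L)) (l : K ≤ M) {a : G} {f : F2} (m : a ∈ M) (i : Ac2 n pt a f) (e : memF n w B L f = true) : a ∈ K := by
  induction L generalizing a f with
  | nil => exact (feq_iff hi hB m (one_mem M) i .one).1 e ▸ one_mem K
  | cons b L ih =>
    obtain ⟨c, o, e⟩ := memF_cons e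
    obtain ⟨t, q, r⟩ := h c (List.mem_append_left _ o)
    exact (mul_mem_cancel_left (inv_mem q)).1 (ih (fun c j => h c (List.mem_append_right _ j)) (mul_mem (inv_mem (l q)) m)
      ((Ac2.tab hi hw r).inv.mul i) e)

/-- Schreier's test -/
noncomputable def schF (n w : ℕ) (B : List ℕ) (L : List (ℕ × List ℕ)) : Bool :=
  List.rec (motive := fun _ => Bool) true (fun l L' ih => band ih (band (memF n w B (l :: L') fun _ i => i)
    (allL (flat (l :: L')) fun s => forceB s fun s => allL l.2 fun t => forceB t fun t => memF n w B (l :: L') (fmul (ftab n w s) (ftab n w t))))) L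

theorem card_le_of_schF [Finite G] (hi : Inj n pt) (hf : Faithful G n pt) (hw : n ≤ 2 ^ w) {M : Subgroup G} {B : List ℕ} (hB : Base n pt M B)
    {L : List (ℕ × List ℕ)} (h : In n w pt M (flat L)) (e : schF n w B L = true) : Nat.card (closure (els G n w pt (flat L))) ≤ chSize L := by
  induction L with
  | nil =>
    rw [show els G n w pt (flat []) = ∅ from Set.eq_empty_of_forall_notMem fun _ ⟨_, h, _⟩ => (nomatch h), Subgroup.closure_empty, card_bot]
    exact le_rfl
  | cons l L ih =>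
    obtain ⟨e₁, e₂, e₃⟩ : _ ∧ _ ∧ _ := (band_eq_true.1 e).imp_right band_eq_true.1
    have h' : In n w pt M (flat L) := fun c hc => h c (List.mem_append_right _ hc)
    let f : Fin l.2.length × closure (els G n w pt (flat L)) → G := fun p => dec (Rep n w pt) l.2[p.1] * p.2
    have rep : ∀ c ∈ l.2, dec (G := G) (Rep n w pt) c ∈ M ∧ Rep n w pt (dec (G := G) (Rep n w pt) c) c := fun c hc => by
      obtain ⟨g, m, a⟩ := h c (List.mem_append_left _ hc)
      rw [a.dec_eq hf]; exact ⟨m, a⟩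
    have key : ∀ g ∈ M, ∀ c, Ac2 n pt g c → memF n w B (l :: L) c = true → g ∈ Set.range f := fun g m c hc e => by
      obtain ⟨d, hd, e⟩ := memF_cons e
      have := memF_sound hi hw hB (in_closure h') (gen_closure hf _ _ h') (mul_mem (inv_mem (rep d hd).1) m)
        ((Ac2.tab hi hw (rep d hd).2).inv.mul hc) e
      obtain ⟨i, j, rfl⟩ := List.getElem_of_mem hd
      exact ⟨(⟨i, j⟩, ⟨_, this⟩), mul_inv_cancel_left ..⟩
    let N : Submonoid G :=
      { carrier := {g | ∀ a ∈ Set.range f, g * a ∈ Set.range f}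
        mul_mem' := fun ha hb c hc => by rw [mul_assoc]; exact ha _ (hb _ hc)
        one_mem' := fun a ha => by rwa [one_mul] }
    let P : Subgroup G := { N with inv_mem' := fun {g} hg => Submonoid.powers_le.2 hg (mem_powers_iff_mem_zpowers.2 (inv_mem (mem_zpowers g))) }
    have hP : closure (els G n w pt (flat (l :: L))) ≤ P := (closure_le _).2 (by
      rintro g ⟨c, hc, a⟩ _ ⟨⟨i, k⟩, rfl⟩
      have := allL_iff.1 ((forceB_eq ..).symm.trans (allL_iff.1 e₃ c hc)) _ (List.getElem_mem i.2)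
      rw [forceB_eq] at this
      obtain ⟨g', m, a'⟩ := h c hc
      have r := rep _ (List.getElem_mem i.2)
      obtain ⟨⟨j, k'⟩, e'⟩ := key _ (mul_mem (a'.eq_of_faithful hf a ▸ m) r.1) _ ((Ac2.tab hi hw a).mul (.tab hi hw r.2)) this
      refine ⟨(j, k' * k), ?_⟩
      simp only [f, coe_mul, ← mul_assoc] at e' ⊢
      rw [e']
      rfl)
    calc _ ≤ Nat.card (Set.range f) := Nat.card_mono (Set.toFinite _) fun g hg => by simpa using hP hg 1 (key 1 M.one_mem _ .one e₂)
      _ ≤ _ := Finite.card_range_le f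
      _ ≤ _ := by rw [Nat.card_prod, Nat.card_fin]; exact Nat.mul_le_mul_left _ (ih h' e₁)

/-- the transversals are words -/
noncomputable def lowF (n w : ℕ) (env : ℕ → ℕ) (ws : List W) (L : List (ℕ × List ℕ)) (D : List (List ℕ)) : Bool :=
  forceL (ws.map (wcode n w env)) fun gs => band (slpF n w (flat L) D gs) (wOK n w (fun c => memL c (flat L)) L [])
/-- a certificate for a chain -/
noncomputable def chnF (n w : ℕ) (B : List ℕ) (env : ℕ → ℕ) (ws : List W) (L : List (ℕ × List ℕ)) (D : List (List ℕ)) : Bool :=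
  band (lowF n w env ws L D) (band (allP ws fun t => memF n w B L (wpf (fenv n w env) t)) (schF n w B L))

theorem low_of_lowF (hi : Inj n pt) (hw : n ≤ 2 ^ w) {γ : ℕ → G} {env : ℕ → ℕ} (h : ∀ c, Rep n w pt (γ c) (env c)) {ws : List W}
    {L : List (ℕ × List ℕ)} {D : List (List ℕ)} (e : lowF n w env ws L D = true) : In n w pt (genW γ ws) (flat L) ∧ WChain n w pt L (genW γ ws) := by
  rw [lowF, forceL_eq, band_eq_true] at e
  have := in_of_slpF hi hw (in_genW hi hw h ws) e.1
  exact ⟨this, wChain_of_wOK (fun c m => this c (memL_iff.1 m)) e.2⟩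

theorem chn_of_chnF [Finite G] (hi : Inj n pt) (hf : Faithful G n pt) (hw : n ≤ 2 ^ w) {M : Subgroup G} {B : List ℕ} (hB : Base n pt M B)
    {γ : ℕ → G} {env : ℕ → ℕ} (h : ∀ c, Rep n w pt (γ c) (env c)) (hM : ∀ c, γ c ∈ M) {ws : List W} {L : List (ℕ × List ℕ)}
    {D : List (List ℕ)} (e : chnF n w B env ws L D = true) : Chn n w pt L (genW γ ws) := by
  simp only [chnF, band_eq_true, allP_iff] at e
  obtain ⟨a, b⟩ := low_of_lowF hi hw h e.1
  have l : genW γ ws ≤ M := genW_le.2 fun t _ => ev_mem_of_forall hM t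
  exact ⟨b, b.sChain hi ((card_le_of_le (genW_le.2 fun t m => memF_sound hi hw hB (in_closure (a.mono le_top)) ((gen_closure hf _ _ a).trans l)
    (ev_mem_of_forall hM t) (.word (.env hi hw h) t) (e.2.1 t m))).trans (card_le_of_schF hi hf hw hB (a.mono l) e.2.2))⟩

/-! ### Words coded by numbers, conjugacy classes -/

/-- a word with `f` letters below `16` -/
noncomputable def pwF (ef : ℕ → F2) (f : ℕ) : ℕ → F2 :=
  Nat.rec (fun _ _ i => i) (fun _ ih x s i => forceN (Nat.mod x 16) fun c => forceN (Nat.div x 16) fun y => fmul (ef c) (ih y) s i) f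
theorem Ac2.pw {γ : ℕ → G} {ef : ℕ → F2} (h : ∀ c, Ac2 n pt (γ c) (ef c)) (f x : ℕ) : Ac2 n pt (evF γ 16 f x) (pwF ef f x) := by
  induction f generalizing x with
  | zero => exact .one
  | succ f ih =>
    rw [show pwF ef (f + 1) x = fmul (ef (x % 16)) (pwF ef f (x / 16)) from funext₂ fun s i => by
      change forceN (x % 16) (fun c => forceN (x / 16) fun y => fmul (ef c) (pwF ef f y) s i) = _
      rw [forceN_eq, forceN_eq]]
    exact (h _).mul (ih _)
theorem evF_mem {γ : ℕ → G} {K : Subgroup G} (h : ∀ c < 16, γ c ∈ K) (f x : ℕ) : evF γ 16 f x ∈ K := by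
  induction f generalizing x with
  | zero => exact one_mem K
  | succ f ih => exact mul_mem (h _ (Nat.mod_lt _ (by decide))) (ih _)

/-- the images of some points -/
noncomputable def keyF (w : ℕ) (B : List ℕ) (f : F2) : ℕ := List.rec 0 (fun b _ ih => Nat.add (Nat.shiftLeft ih w) (f false b)) B
theorem keyF_eq (hi : Inj n pt) {B : List ℕ} (hB : ∀ b ∈ B, b < n) {a : G} {f g : F2} (i : Ac2 n pt a f) (j : Ac2 n pt a g) :
    keyF w B f = keyF w B g := by
  induction B with
  | nil => rfl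
  | cons b B ih => exact congrArg₂ (fun x y => Nat.add (Nat.shiftLeft x w) y) (ih fun c m => hB c (.tail _ m)) (i.1.eq hi j.1 (hB b (.head _)))
/-- the key of a conjugate -/
noncomputable def keyC (w : ℕ) (B : List ℕ) (ef : ℕ → F2) (f : ℕ) (x : F2) (D i : ℕ) : ℕ :=
  forceN (get (Nat.mul 4 f) D i) fun y => keyF w B (fmul (fmul (pwF ef f y) x) (finv (pwF ef f y)))
/-- `N + 1` different conjugates -/
noncomputable def clsF (w : ℕ) (B : List ℕ) (ef : ℕ → F2) (f : ℕ) (x : F2) (D N : ℕ) : Bool :=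
  allBig N fun i => forceB (Nat.succ i) fun j => blt (keyC w B ef f x D i) (keyC w B ef f x D j)

theorem card_cen_le [Finite G] (hi : Inj n pt) {B : List ℕ} (hB : ∀ b ∈ B, b < n) {γ : ℕ → G} {ef : ℕ → F2} (h : ∀ c, Ac2 n pt (γ c) (ef c))
    {K : Subgroup G} (hK : ∀ c < 16, γ c ∈ K) {x : G} {g : F2} (hx : Ac2 n pt x g) {f D N : ℕ} (e : clsF w B ef f g D N = true) :
    (N + 1) * Nat.card ↥(K ⊓ centralizer {x}) ≤ Nat.card K := by
  simp only [clsF, allBig_iff, forceB_eq, blt_iff] at e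
  have s : StrictMono fun i : Fin (N + 1) => keyC w B ef f g D i := Fin.strictMono_iff_lt_succ.2 fun i => e i i.2
  rw [← Nat.card_fin (N + 1), ← Nat.card_prod]
  refine Nat.card_le_card_of_injective (fun p : Fin (N + 1) × ↥(K ⊓ centralizer {x}) =>
    (⟨evF γ 16 f (get (Nat.mul 4 f) D p.1) * p.2, K.mul_mem (evF_mem hK ..) p.2.2.1⟩ : K)) ?_
  rintro ⟨i, a⟩ ⟨j, b⟩ o
  replace o : evF γ 16 f _ * a = evF γ 16 f _ * b := congrArg Subtype.val o
  have c : ∀ (u : G) (a : ↥(K ⊓ centralizer {x})), u * x * u⁻¹ = u * a * x * (u * a)⁻¹ := fun u a => by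
    rw [mul_assoc u a, mem_centralizer_singleton_iff.1 a.2.2]; group
  obtain rfl : i = j := s.injective (by
    simp only [keyC, forceN_eq]
    exact keyF_eq hi hB (((Ac2.pw h ..).mul hx).mul (Ac2.pw h ..).inv) (by
      rw [c _ a, o, ← c]; exact ((Ac2.pw h ..).mul hx).mul (Ac2.pw h ..).inv))
  rw [Subtype.ext (mul_left_cancel o)]

end Cfsg.Lib.SzV
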