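import Cfsg.Agent.Lib.SzW.GA
import Cfsg.Agent.Lib.Mod.G24

/-!
# `G₂(4).2` on 416 points: chains and classes
-/

set_option autoImplicit false
set_option maxRecDepth 100000

namespace Cfsg.Lib.SzV

open Cfsg.Lib.Calc Cfsg.Lib.Grp Cfsg.Lib.T2

/-- a base -/
def B4 : List ℕ := [255, 0, 1, 2]
/-- the letters -/
noncomputable def efG : ℕ → F2 := fenv 416 9 mG.env
/-- evaluation -/
noncomputable def evG (φ : Fm) : (ℕ → F2) → Bool := evf 416 9 B4 mG.Ls φ

theorem mG_pr : mG.Pr := .of (by decide +kernel)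
theorem mG_D : Mod.G24.B.D0 = [mG.env 16, mG.env 17] := by decide +kernel
theorem mG_1 : slpF 416 9 (gT ++ gE.take 44) gD ([.l 16, .l 17].map (wcode 416 9 mG.env)) = true := by decide +kernel
theorem mG_0 : band (slpF 416 9 [gS] [gSD] (mG.env 45 :: gT ++ [mG.env 16, mG.env 17])) (lvsOK 416 (get 9) (get 4) 503193600 gL) = true := by
  decide +kernel
theorem mG_c : allLt 6 (fun k => chnF 416 9 B4 mG.env (mG.ws k) (mG.Ls k) ([g0D, g1D, g2D, g3D, g4D, g5D].getD k [])) = true := by
  decide +kernel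
theorem mG_z : forceB cZ (fun D => clsF 9 B4 efG 4 (efG 22) D 4094) = true := by decide +kernel
theorem mG_t : forceB cT (fun D => clsF 9 B4 efG 4 (efG 29) D 4159) = true := by decide +kernel

end Cfsg.Lib.SzV
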