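import Cfsg.Agent.Lib.SzW.GB

/-!
# `G₂(4).2` on 416 points: enumerations
-/

set_option autoImplicit false
set_option maxRecDepth 100000

namespace Cfsg.Lib.SzV

open Cfsg.Lib.Calc Cfsg.Lib.Grp Cfsg.Lib.T2

/-- a commutator -/
def kW (a b : W) : W := .mul (.mul (.mul a b) (.inv a)) (.inv b)
/-- a power of `z` -/
def zF (a : W) : Fm := .or (.one a) (.eq a (.l 22))
/-- in `E₁` but not in `Z` -/
def eF (a : W) : Fm := .and (.mem 4 a) (.not (.mem 5 a))
/-- the product of three conjugates -/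
def tW (a : W) : W := .mul (.mul a (.mul (.mul (.l 29) a) (.inv (.l 29)))) (.mul (.mul (.l 29) (.mul (.mul (.l 29) a) (.inv (.l 29)))) (.inv (.l 29)))

theorem c0_2 : evG (.all 0 60 [(.l 18, .l 18), (.l 19, .l 19)] (.imp (.eq (.mul (.l 60) (.l 60)) (.l 22)) (.imp (.one (tW (.l 60)))
    (.or (.eq (.l 60) (.l 32)) (.or (.eq (.l 60) (.l 33)) (.eq (.l 60) (.mul (.mul (.l 32) (.l 33)) (.l 22)))))))) efG = true := by
  decide +kernel
theorem w1_1 : evG (.all 3 60 [] (.and (.and (.and (zF (kW (.l 60) (.l 20))) (zF (kW (.l 60) (.l 18))))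
    (.and (zF (kW (.l 60) (.l 32))) (zF (kW (.l 60) (.l 33))))) (.one (.pow (.l 60) 4)))) efG = true := by decide +kernel
theorem w1_2 : evG (.all 3 60 [(.l 20, .l 20), (.l 18, .l 18), (.l 32, .l 32), (.l 33, .l 33)] (.mem 5 (.l 60))) efG = true := by decide +kernel
theorem t0_1 : evG (.all 1 60 [] (.imp (.one (.pow (.l 60) 4)) (.mem 4 (.mul (.l 60) (.l 60))))) efG = true := by decide +kernel

/-- the certificate of an involution -/
noncomputable def crt (f : F2) (k : ℕ → Bool) : Bool := forceB (keyF 9 B4 f) fun d =>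
  forceB (get 26 gH (Nat.mod (Nat.mod d (Nat.add 100003 (get 10 gHD (Nat.mod d 211)))) 1024)) fun c => forceB (Nat.div c 4) fun x =>
    forceB (Nat.mod c 4) fun t => band (k t) (feq B4 (fmul (pwF efG 6 x) (efG (get 6 186134 t))) (fmul f (pwF efG 6 x)))
/-- elements of the Sylow subgroup -/
def fiveL : List (List W) := [[.l 0, .mul (.l 21) (.l 19), .mul (.l 24) (.l 20), .mul (.l 25) (.l 42), .mul (.l 25) (.mul (.mul (.l 29) (.l 28)) (.inv (.l 29)))],
  [.l 0, .mul (.l 24) (.l 21), .mul (.l 21) (.l 24), .mul (.l 25) (.l 21), .mul (.l 25) (.l 24)]]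
/-- five different conjugates -/
noncomputable def five (f : F2) : Bool := bnot (allP fiveL fun l => bnot (
  forceL (l.map fun t => keyF 9 B4 (fmul (fmul (wpf efG t) f) (finv (wpf efG t)))) fun k => decide k.Nodup))
theorem s0_1 : allF 416 9 (fun f => Bool.rec true (crt f fun t => bor (Nat.beq t 0) (band (blt t 3) (five f)))
    (evG (.and (.one (.mul (.l 60) (.l 60))) (.not (.one (.l 60)))) (upd efG 60 f))) (mG.Ls 2) (fun _ i => i) = true := by decide +kernel
theorem c0_3 : allF 416 9 (fun f => Bool.rec true (crt f fun t => Nat.beq t 1)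
    (evG (.and (.one (.mul (.l 60) (.l 60))) (.and (zF (tW (.l 60))) (.not (zF (.l 60))))) (upd efG 60 f))) (mG.Ls 0) (fun _ i => i) = true := by
  decide +kernel

end Cfsg.Lib.SzV
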