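import Cfsg.Agent.Lib.SzW.GC

/-!
# `G₂(4).2` on 416 points: the action on `W₁`
-/

set_option autoImplicit false
set_option maxRecDepth 100000

namespace Cfsg.Lib.SzV

open Cfsg.Lib.Calc Cfsg.Lib.Grp Cfsg.Lib.T2

theorem allF_cut {n w b : ℕ} {P f l L} (k : ℕ) (i : allF n w P ((b, l.take k) :: L) f = true) (j : allF n w P ((b, l.drop k) :: L) f = true) :
    allF n w P ((b, l) :: L) f = true :=
  allI_iff.2 fun c m => (List.mem_append.1 (by rwa [List.take_append_drop])).elim (allI_iff.1 i c) (allI_iff.1 j c)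

/-- the formula -/
def c0F : Fm := .imp (.mem 5 (kW (.l 60) (.l 20))) (.imp (.mem 5 (kW (.l 60) (.l 18))) (.imp (.mem 5 (kW (.l 60) (.l 32)))
    (.imp (.mem 5 (kW (.l 60) (.l 33))) (.and (.or (.mem 4 (.l 60)) (.or (eF (kW (.l 24) (.l 60))) (.or (eF (kW (.l 25) (.l 60)))
      (eF (kW (.l 25) (kW (.l 24) (.l 60))))))) (.imp (zF (kW (.l 60) (.l 20))) (.imp (zF (kW (.l 60) (.l 18)))
      (.imp (zF (kW (.l 60) (.l 32))) (.imp (zF (kW (.l 60) (.l 33))) (.mem 3 (.l 60))))))))))
/-- a part of the enumeration -/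
noncomputable def c0P (l : List ℕ) : Bool := allF 416 9 (fun f => Bool.rec true (evG c0F (upd efG 60 f)) (psF B4 efG [] f)) ((5, l) :: g0L.tail) fun _ i => i
theorem c0_a : c0P (((g0L.headD (0, [])).2.take 16).take 8) = true := by decide +kernel
theorem c0_b : c0P (((g0L.headD (0, [])).2.take 16).drop 8) = true := by decide +kernel
theorem c0_c : c0P (((g0L.headD (0, [])).2.drop 16).take 8) = true := by decide +kernel
theorem c0_d : c0P (((g0L.headD (0, [])).2.drop 16).drop 8) = true := by decide +kernel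
theorem c0P_cut {l} (k : ℕ) (i : c0P (l.take k) = true) (j : c0P (l.drop k) = true) : c0P l = true := allF_cut k i j
theorem evG_all (k v ps a ef) : evG (.all k v ps a) ef = allF 416 9 (fun f => Bool.rec true (evG a (upd ef v f)) (psF B4 ef ps f)) (mG.Ls k) fun _ i => i := rfl
theorem c0_1 : evG (.all 0 60 [] c0F) efG = true := by
  rw [evG_all, show mG.Ls 0 = (5, (g0L.headD (0, [])).2) :: g0L.tail from rfl, ← c0P]
  exact c0P_cut 16 (c0P_cut 8 c0_a c0_b) (c0P_cut 8 c0_c c0_d)

end Cfsg.Lib.SzV
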